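import Mathlib
import Cfsg.Agent.Lib.Glauberman.Act
import Cfsg.Agent.Lib.OddChar.GaloisConj

/-!
# Characters fixed by a power map of prime power order
-/

set_option autoImplicit false

namespace Cfsg.Agent.Lib.GaloisFix.Basic

open Cfsg Cfsg.Agent.Lib.Char.Basic Cfsg.Agent.Lib.Char.Ortho Cfsg.Agent.Lib.Char.Complete
open Cfsg.Agent.Lib.Char.Conj Cfsg.Agent.Lib.Glauberman.ConjAct Cfsg.Agent.Lib.Glauberman.Lemma
open Cfsg.Agent.Lib.Glauberman.Act Cfsg.Agent.Lib.Char.Clifford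
open Cfsg.Agent.Lib.OddChar.GaloisConj
open scoped ComplexConjugate

universe u

variable {G : Type u} [Group G] [Fintype G]

/-- The power map on irreducible characters. -/
noncomputable def pw (k : ℕ) (hk : k.Coprime (Nat.card G)) (θ : IrrCharacter G) : IrrCharacter G :=
  ⟨fun g => (θ : G → ℂ) (g ^ k), isIrrCharacter_pow hk θ.2⟩

theorem pw_iterate (k : ℕ) (hk : k.Coprime (Nat.card G)) (j : ℕ) (θ : IrrCharacter G) (g : G) :
    ((pw k hk)^[j] θ : G → ℂ) g = (θ : G → ℂ) (g ^ (k ^ j)) := by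
  induction j generalizing θ g with
  | zero => simp
  | succ j ih =>
    rw [Function.iterate_succ_apply, ih, pow_succ]
    show (θ : G → ℂ) ((g ^ (k ^ j)) ^ k) = _
    rw [pow_mul]

theorem pow_of_modEq {m : ℕ} (hm : m ≡ 1 [MOD Nat.card G]) (g : G) : g ^ m = g := by
  have h1 : g ^ m = g ^ 1 := by
    apply (pow_eq_pow_iff_modEq).mpr
    exact hm.of_dvd (orderOf_dvd_natCard g)
  rwa [pow_one] at h1

/-- The power map as a permutation, when the power has finite order. -/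
noncomputable def pwPerm (k m : ℕ) (hk : k.Coprime (Nat.card G)) (hm : 0 < m)
    (hke : k ^ m ≡ 1 [MOD Nat.card G]) : Equiv.Perm (IrrCharacter G) where
  toFun := pw k hk
  invFun := (pw k hk)^[m - 1]
  left_inv θ := by
    apply Subtype.ext
    funext g
    rw [pw_iterate]
    show (θ : G → ℂ) ((g ^ (k ^ (m - 1))) ^ k) = _
    rw [← pow_mul, ← pow_succ, Nat.sub_add_cancel hm, pow_of_modEq hke]
  right_inv θ := by
    apply Subtype.ext
    funext g
    show ((pw k hk)^[m - 1] θ : G → ℂ) (g ^ k) = _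
    rw [pw_iterate, ← pow_mul, ← pow_succ', Nat.sub_add_cancel hm, pow_of_modEq hke]

theorem pwPerm_pow (k m : ℕ) (hk : k.Coprime (Nat.card G)) (hm : 0 < m)
    (hke : k ^ m ≡ 1 [MOD Nat.card G]) : (pwPerm k m hk hm hke) ^ m = 1 := by
  ext θ g
  rw [← Equiv.Perm.iterate_eq_pow]
  show ((pw k hk)^[m] θ : G → ℂ) g = _
  rw [pw_iterate, pow_of_modEq hke]
  rfl

/-- Inner products and a power map. -/
theorem classInner_comp_pow (k : ℕ) (hk : k.Coprime (Nat.card G)) (a b : G → ℂ) :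
    classInner (fun g => a (g ^ k)) (fun g => b (g ^ k)) = classInner a b := by
  rw [classInner_def, classInner_def]
  congr 1
  exact Fintype.sum_bijective _ (pow_bijective_of_coprime hk) _ _ fun g => rfl

/-- The constituents on a normal subgroup of index prime to `p` of a character fixed by a power map
of `p`-power order are fixed. -/
theorem constituents_fixed (p : ℕ) [Fact p.Prime] (N : Subgroup G) [hN : N.Normal] [Fintype N]
    (hidx : ¬ p ∣ N.index) (k e : ℕ) (hk : Nat.Coprime k (Nat.card G))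
    (hke : k ^ (p ^ e) ≡ 1 [MOD Nat.card G]) (χ : IrrCharacter G)
    (hχ : ∀ g : G, (χ : G → ℂ) (g ^ k) = (χ : G → ℂ) g) (θ : IrrCharacter N)
    (hθ : classInner (fun n : N => (χ : G → ℂ) n) (θ : N → ℂ) ≠ 0) :
    ∀ n : N, (θ : N → ℂ) (n ^ k) = (θ : N → ℂ) n := by
  classical
  have hp := (Fact.out : p.Prime)
  haveI : Finite (IrrCharacter N) := finite_irrCharacter
  have hkN : k.Coprime (Nat.card N) := hk.coprime_dvd_right (Subgroup.card_subgroup_dvd_card N)
  have hkeN : k ^ (p ^ e) ≡ 1 [MOD Nat.card N] := hke.of_dvd (Subgroup.card_subgroup_dvd_card N)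
  have hm : 0 < p ^ e := pow_pos hp.pos e
  let σ := pwPerm (G := N) k (p ^ e) hkN hm hkeN
  have hσp : σ ^ (p ^ e) = 1 := pwPerm_pow k (p ^ e) hkN hm hkeN
  let S : Subgroup (Equiv.Perm (IrrCharacter N)) := Subgroup.zpowers σ
  have hScard : Nat.card S ∣ p ^ e := by
    rw [Nat.card_zpowers]
    exact orderOf_dvd_of_pow_eq_one hσp
  have hnorm : ∀ s ∈ (⊤ : Subgroup G), ∀ n ∈ N, s * n * s⁻¹ ∈ N := fun s _ n hn => hN.conj_mem n hn s
  let α : G →* Equiv.Perm (IrrCharacter N) :=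
    (actIrr hnorm).comp (Subgroup.topEquiv (G := G)).symm.toMonoidHom
  have hαapp : ∀ (g : G) (ω : IrrCharacter N) (n : N),
      (α g ω : N → ℂ) n = (ω : N → ℂ) ⟨g⁻¹ * n * g, by simpa using hN.conj_mem n n.2 g⁻¹⟩ := by
    intro g ω n
    refine congrArg (ω : N → ℂ) (Subtype.ext ?_)
    show (g⁻¹ : G) * n * ((g⁻¹ : G))⁻¹ = g⁻¹ * n * g
    simp
  have hcommσ : ∀ g : G, Commute σ (α g) := by
    intro g
    ext ω n
    show ((σ (α g ω) : IrrCharacter N) : N → ℂ) n = ((α g (σ ω) : IrrCharacter N) : N → ℂ) n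
    rw [hαapp]
    show (α g ω : N → ℂ) (n ^ k) = (ω : N → ℂ) (_ ^ k)
    rw [hαapp]
    refine congrArg (ω : N → ℂ) (Subtype.ext ?_)
    have h1 : ((g⁻¹ * (n : G) * g) ^ k : G) = g⁻¹ * (n : G) ^ k * g := by
      simpa using conj_pow (a := g⁻¹) (b := (n : G)) (i := k)
    simp [h1]
  let φ : S →* MulAut G := 1
  -- `σ` preserves the constituents
  have hPσ : ∀ ω : IrrCharacter N, classInner (fun n : N => (χ : G → ℂ) n) (ω : N → ℂ) ≠ 0 →
      classInner (fun n : N => (χ : G → ℂ) n) (σ ω : N → ℂ) ≠ 0 := by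
    intro ω hω
    have h1 : (fun n : N => (χ : G → ℂ) n) = fun n : N => (fun m : N => (χ : G → ℂ) m) (n ^ k) := by
      funext n
      have h2 := hχ n
      simpa using h2.symm
    have h2 : (σ ω : N → ℂ) = fun n : N => (ω : N → ℂ) (n ^ k) := rfl
    rw [h1, h2, classInner_comp_pow k hkN (fun m : N => (χ : G → ℂ) m) (ω : N → ℂ)]
    exact hω
  have hPpow : ∀ (j : ℕ) (ω : IrrCharacter N), classInner (fun n : N => (χ : G → ℂ) n) (ω : N → ℂ) ≠ 0 →
      classInner (fun n : N => (χ : G → ℂ) n) (((σ ^ j) ω : IrrCharacter N) : N → ℂ) ≠ 0 := by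
    intro j ω hω
    induction j with
    | zero => simpa using hω
    | succ j ih =>
      rw [pow_succ', Equiv.Perm.mul_apply]
      exact hPσ _ ih
  have hconj : ∀ ω ω' : IrrCharacter N, classInner (fun n : N => (χ : G → ℂ) n) (ω : N → ℂ) ≠ 0 →
      classInner (fun n : N => (χ : G → ℂ) n) (ω' : N → ℂ) ≠ 0 → ∃ g : G, α g ω = ω' := by
    intro ω ω' hω hω'
    by_contra hcon
    push Not at hcon
    refine hω' (classInner_restrict_eq_zero_of_not_conj hN χ.2 ω.2 ω'.2 hω ?_)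
    intro g h
    apply hcon g⁻¹
    apply Subtype.ext
    funext n
    rw [← h, hαapp, conjOn_apply]
    refine congrArg (ω : N → ℂ) (Subtype.ext ?_)
    simp
  obtain ⟨ω, hω, hfix⟩ := glauberman_lemma' (ω₀ := θ) N φ (fun s n hn => hn) α
    (fun n hn => by
      ext ω : 1
      exact actIrr_of_mem hnorm ω _ hn)
    S.subtype
    (fun s g ω => by
      obtain ⟨s, hs⟩ := s
      obtain ⟨i, rfl⟩ := hs
      have h1 : Commute (σ ^ i) (α g) := (hcommσ g).zpow_left i
      exact congrArg (fun f : Equiv.Perm (IrrCharacter N) => f ω) h1.eq)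
    (fun ω => classInner (fun n : N => (χ : G → ℂ) n) (ω : N → ℂ) ≠ 0)
    (fun g ω hω => by
      have h1 : (fun n : N => (χ : G → ℂ) n) =
          fun n : N => (fun m : N => (χ : G → ℂ) m) (conjHom N (⊤ : Subgroup G) hnorm ((⟨g, trivial⟩ : (⊤ : Subgroup G))⁻¹) n) := by
        funext n
        have h2 := isClassFunction_of_isIrrCharacter χ.2 n g⁻¹
        rw [← h2]
        rfl
      show classInner _ ((ω : N → ℂ) ∘ conjHom N (⊤ : Subgroup G) hnorm ((⟨g, trivial⟩ : (⊤ : Subgroup G))⁻¹)) ≠ 0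
      rw [h1]
      have h3 := classInner_comp_mulEquiv (conjHom N (⊤ : Subgroup G) hnorm ((⟨g, trivial⟩ : (⊤ : Subgroup G))⁻¹))
        (fun m : N => (χ : G → ℂ) m) (ω : N → ℂ)
      rw [Function.comp_def, Function.comp_def] at h3
      rw [Function.comp_def, h3]
      exact hω)
    (fun s ω hω => by
      obtain ⟨s, hs⟩ := s
      have hs' : s ∈ Submonoid.powers σ := mem_powers_iff_mem_zpowers.mpr hs
      obtain ⟨j, rfl⟩ := hs'
      exact hPpow j ω hω)
    hconj
    (((Nat.Prime.coprime_iff_not_dvd hp).mpr hidx).symm.pow_right e |>.coprime_dvd_right hScard)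
    (Or.inr inferInstance) hθ
  have hωσ : σ ω = ω := hfix ⟨σ, Subgroup.mem_zpowers σ⟩
  obtain ⟨g, hg⟩ := hconj ω θ hω hθ
  intro n
  rw [← hg, hαapp, hαapp]
  have h1 := congrFun (congrArg Subtype.val hωσ) ⟨g⁻¹ * n * g, by simpa using hN.conj_mem n n.2 g⁻¹⟩
  rw [← h1]
  show (ω : N → ℂ) _ = (ω : N → ℂ) _
  refine congrArg (ω : N → ℂ) (Subtype.ext ?_)
  have h2 : ((g⁻¹ * (n : G) * g) ^ k : G) = g⁻¹ * (n : G) ^ k * g := by
    simpa using conj_pow (a := g⁻¹) (b := (n : G)) (i := k)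
  simp [h2]

end Cfsg.Agent.Lib.GaloisFix.Basic
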